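import Cfsg.Agent.H971.RV.FrOKA

/-!
# TEAM RV, row R5 for `E₆`, `²E₆`: the data of the frame (helper971)
-/

set_option autoImplicit false

namespace Cfsg.Agent.H971.RV

open Cfsg Cfsg.Lie Cfsg.Lie.ChevalleyDatum
open Cfsg.Agent.H512.LinFour.IdealF Cfsg.Agent.H720.TwFr

theorem lacE6 : Lac chevE6 := ⟨by simp, by decide +kernel, by decide +kernel⟩

theorem frE6 : FrAll hp6 sE6 ltsE6 :=
  frAll_of hp6 ltsE6 lacE6 glE6 (T0 := -2) (by decide +kernel)

end Cfsg.Agent.H971.RV
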